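import Cfsg.Agent.GM.S0a
import Cfsg.Agent.GH2.B
import Cfsg.Agent.Transfer.Tate
import Cfsg.Agent.Classical.Linear
import Cfsg.Agent.S3104
import Cfsg.Agent.S3105
import Cfsg.Agent.S3106

/-! The starting configuration exists. -/

set_option autoImplicit false

namespace CF.GM.S0
open Subgroup Function CF.Loc CF.GH2 Cfsg

local instance : Fact (Nat.Prime 2) := ⟨Nat.prime_two⟩

theorem sec {G : Type*} [Group G] (h : SR G) : SectionalPRankLE 2 4 G := fun H N _ _ _ k =>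
  ((h.of_inj _ H.subtype_injective).of_surj _ (QuotientGroup.mk'_surjective N)).card_le fun x hx => by
    rw [← pow_two]; exact k x hx

theorem alt {n : ℕ} (h : 5 ≤ n) : ∃ f : A5 →* alternatingGroup (Fin n), Injective f := by
  classical
  let e := Equiv.ofInjective _ (Fin.castLE_injective h)
  exact ⟨((Equiv.Perm.extendDomainHom e).comp (Subgroup.subtype _)).codRestrict _ fun x =>
    (Equiv.Perm.sign_extendDomain _ e).trans x.2, (MonoidHom.injective_codRestrict _ _ _).2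
      ((Equiv.Perm.extendDomainHom_injective e).comp (subtype_injective _))⟩

theorem split {Y : Type*} [Group Y] [Finite Y] {π : Y →* A5} (s : Surjective π) (c : Nat.card π.ker = 3) :
    Nonempty (commutator Y ≃* A5) := by
  haveI : Fact (Nat.Prime 5) := ⟨by norm_num⟩
  haveI : Fact (Nat.Prime 3) := ⟨by norm_num⟩
  have cY : Nat.card Y = 180 := by
    rw [← π.ker.card_mul_index, index_ker, MonoidHom.range_eq_top.2 s, card_top, c, nat_card_alternatingGroup]
    simp [Nat.factorial]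
  obtain ⟨f, hf⟩ := exists_prime_orderOf_dvd_card' (G := Y) 5 (by rw [cY]; decide)
  haveI := isCyclic_of_prime_card c
  have z : centralizer (π.ker : Set Y) = ⊤ := top_of s (le_centralizer _) (x := f)
    (mem_centralizer_iff.2 fun x hx => (fix_small (p := 5) (fun x hx => π.normal_ker.conj_mem x hx f)
      (hf ▸ pow_orderOf_eq_one f) (by rw [c]; decide) hx).symm) fun k => by
    have := orderOf_dvd_natCard _ k
    rw [hf, c] at this
    exact absurd this (by decide)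
  obtain ⟨P⟩ : Nonempty (Sylow 3 Y) := inferInstance
  have k := Transfer.abelian_hall_inf_commutator_inf_center (H := (P : Subgroup Y)) (IsPGroup.isMulCommutative_of_card_eq_prime_sq
    (p := 3) (G := (P : Subgroup Y)) (by rw [P.card_eq_multiplicity, cY]; decide +kernel)) P.card_coprime_index
  refine ⟨.ofBijective (π.comp (commutator Y).subtype) ⟨(injective_iff_map_eq_one _).2 fun x hx => Subtype.ext
    (mem_bot.1 (k.le ⟨⟨(IsPGroup.of_card (n := 1) c).le_sylow_of_normal P hx, x.2⟩, mem_center_iff.2 fun g =>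
      (mem_centralizer_iff.1 (z.ge (mem_top g)) _ hx).symm⟩)), fun y => ?_⟩⟩
  have : (commutator Y).map π = ⊤ := by
    rw [map_commutator_eq, MonoidHom.range_eq_top.2 s]
    exact commutator_alternatingGroup_eq_top (by simp)
  obtain ⟨x, hx, e⟩ := this.ge (mem_top y)
  exact ⟨⟨x, hx⟩, e⟩

theorem three {Y : Type*} [Group Y] [Finite Y] {Z : Subgroup Y} [Z.Normal] (c : Nat.card Z = 3) {f : A5 →* Y ⧸ Z}
    (i : Injective f) : ∃ g : A5 →* Y, Injective g := by
  let π := (MonoidHom.ofInjective i).symm.toMonoidHom.comp ((QuotientGroup.mk' Z).subgroupComap f.range)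
  have l : Z ≤ f.range.comap (QuotientGroup.mk' Z) := fun x hx => by
    rw [mem_comap, show QuotientGroup.mk' Z x = 1 from (QuotientGroup.eq_one_iff x).2 hx]
    exact one_mem _
  obtain ⟨e⟩ := split (π := π) ((MonoidHom.ofInjective i).symm.surjective.comp
    ((QuotientGroup.mk' Z).subgroupComap_surjective_of_surjective _ (QuotientGroup.mk'_surjective Z))) (by
    rw [← c, ← Nat.card_congr (subgroupOfEquivOfLe l).toEquiv, show π.ker = Z.subgroupOf _ from Subgroup.ext fun x => by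
      rw [MonoidHom.mem_ker, mem_subgroupOf, ← QuotientGroup.eq_one_iff]
      exact (MonoidHom.ofInjective i).symm.map_eq_one_iff.trans Subtype.ext_iff])
  exact ⟨((Subgroup.subtype _).comp (Subgroup.subtype _)).comp e.symm.toMonoidHom,
    (Subtype.val_injective.comp Subtype.val_injective).comp e.symm.injective⟩

/-- a triangle pair -/
def Tp (Y : Type*) [Group Y] (p : ℕ) : Prop := ∃ a b : Y, a ≠ 1 ∧ a ^ p = 1 ∧ b * b = 1 ∧ (a * b) ^ 3 = 1

theorem Tp.map {A B : Type*} [Group A] [Group B] {p : ℕ} (h : Tp A p) (f : A →* B) (i : Injective f) : Tp B p := by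
  obtain ⟨a, b, h1, h2, h3, h4⟩ := h
  exact ⟨f a, f b, (map_ne_one_iff f i).2 h1, by rw [← map_pow, h2, map_one], by rw [← map_mul, h3, map_one],
    by rw [← map_mul, ← map_pow, h4, map_one]⟩

theorem tp5 : Tp A5 5 :=
  ⟨⟨finRotate 5, Equiv.Perm.mem_alternatingGroup.2 (by decide)⟩,
    ⟨Equiv.swap 0 1 * Equiv.swap 2 3, Equiv.Perm.mem_alternatingGroup.2 (by decide)⟩,
    fun h => absurd (congrArg Subtype.val h) (by decide), Subtype.ext (by decide), Subtype.ext (by decide),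
    Subtype.ext (by decide)⟩

theorem tp7 {F : Type} [Field F] [Fintype F] (hF : Fintype.card F = 2) :
    Tp (Matrix.ProjectiveSpecialLinearGroup (Fin 3) F) 7 := by
  let φ := (QuotientGroup.mk' (center _)).comp (Matrix.SpecialLinearGroup.map (n := Fin 3)
    (ZMod.ringEquivOfPrime F Nat.prime_two hF).toRingHom)
  let A : Matrix.SpecialLinearGroup (Fin 3) (ZMod 2) := ⟨!![0, 0, 1; 1, 0, 1; 0, 1, 0], by decide⟩
  let B : Matrix.SpecialLinearGroup (Fin 3) (ZMod 2) := ⟨!![1, 0, 0; 0, 0, 1; 0, 1, 0], by decide⟩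
  refine ⟨φ A, φ B, fun h => ?_, by rw [← map_pow, show A ^ 7 = 1 from Subtype.ext (by decide), map_one],
    by rw [← map_mul, show B * B = 1 from Subtype.ext (by decide), map_one],
    by rw [← map_mul, ← map_pow, show (A * B) ^ 3 = 1 from Subtype.ext (by decide), map_one]⟩
  obtain ⟨r, -, e⟩ := Matrix.SpecialLinearGroup.mem_center_iff.1 ((QuotientGroup.eq_one_iff _).1 h)
  have : Matrix.scalar (Fin 3) r 1 0 = ZMod.ringEquivOfPrime F Nat.prime_two hF 1 := congrFun (congrFun e 1) 0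
  simp at this

variable {G : Type*} [Group G] [Finite G] {Q : Subgroup G}

theorem fin (h : Ce Q) (e : (Q.subgroupOf 𝐍(Q)).map (rho _) = pCore 2 _) (ab : Q ≤ 𝐂(Q)) {p : ℕ}
    (n : ¬ 16 ∣ Nat.card ((𝐍(Q) ⧸ oddCore 𝐍(Q)) ⧸ pCore 2 _)) (t : Tp ((𝐍(Q) ⧸ oddCore 𝐍(Q)) ⧸ pCore 2 _) p)
    (ty : (p = 5 ∧ (∀ x ∈ Q, x * x = 1) ∧ Nat.card Q = 16) ∨
      (p = 7 ∧ (((∀ x ∈ Q, x * x = 1) ∧ (Nat.card Q = 8 ∨ Nat.card Q = 16)) ∨
        Nonempty (Q ≃* Multiplicative (ZMod 4) × (Fin 3 → Multiplicative (ZMod 2)))))) : ∃ Q g h p, St0 (G := G) Q g h p := by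
  let π := (QuotientGroup.mk' (pCore 2 _)).comp (rho 𝐍(Q))
  have s : Surjective π := (QuotientGroup.mk'_surjective _).comp (QuotientGroup.mk'_surjective _)
  have k : ∀ x, π x = 1 → (x : G) ∈ 𝐂(Q) := fun x hx => cen_of h.1 (by
    obtain ⟨q, hq, f⟩ := e.ge ((QuotientGroup.eq_one_iff _).1 hx)
    rintro _ ⟨y, hy, rfl⟩
    rw [← f, ← map_mul, ← map_mul, show y * q = q * y from Subtype.ext (ab hq _ hy)])
  obtain ⟨a, b, a1, ap, b2, ab3⟩ := t
  obtain ⟨a, rfl⟩ := s a
  obtain ⟨b, rfl⟩ := s b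
  refine ⟨Q, a, b, p, h.1, ab, h.2.1, fun R r l => ?_, a.2, b.2, k (a ^ p) (by rwa [map_pow]), k (b * b) (by rwa [map_mul]),
    k ((a * b) ^ 3) (by rwa [map_pow, map_mul]), fun c => a1 ((QuotientGroup.eq_one_iff _).2 (e.le (h.bar c))), ty⟩
  let φ := π.comp (inclusion l)
  obtain ⟨m, hm⟩ := (r.of_surjective _ φ.rangeRestrict_surjective).exists_card_eq
  rw [← φ.ker.index_mul_card, index_ker, hm]
  refine Nat.mul_le_mul (Nat.pow_le_pow_right two_pos (show m ≤ 3 from not_lt.1 fun c => n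
    ((pow_dvd_pow 2 c).trans (hm ▸ card_subgroup_dvd_card _)))) (Nat.card_le_card_of_injective
      (fun x => ⟨x.1.1, h.2.1 _ (isPGroup_iff_forall.1 r _ x.1.2) (k _ x.2)⟩) fun x y q =>
        Subtype.ext (Subtype.ext (by have := congrArg Subtype.val q; exact this)))

theorem q8 : ∀ x y : QuaternionGroup 2, x * x = 1 → x ≠ 1 → y * y = 1 → y ≠ 1 → x = y := by decide

theorem _root_.CF.GM.st0 (h4 : SectionalPRankLE 2 4 G) (hc : Hc G)
    (hl : ∃ T : Subgroup G, IsPGroup 2 T ∧ T ≠ ⊥ ∧ ¬ Group.IsSolvable (normalizer (T : Set G)) ∧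
      IsPConstrained 2 (normalizer (T : Set G))) : ∃ Q g h p, St0 (G := G) Q g h p := by
  obtain ⟨T, t, -, n, c⟩ := hl
  obtain ⟨Q, h, e⟩ := exQ t n c
  have sr := ((SR.of_sec h4).of_inj _ (𝐍(Q)).subtype_injective).of_surj _ (QuotientGroup.mk'_surjective (oddCore _))
  have hO : oddCore (𝐍(Q) ⧸ oddCore 𝐍(Q)) = ⊥ := CF.Solv.pPrimeCore_quotient_pPrimeCore
  have ns := fun k => h.2.2 (sol k)
  have cn := (CF.PLocal.isPConstrained_iff_of_eq_bot hO).2 (CF.PLocal.isPConstrained_iff.1 h.con)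
  let ψ := ((rho 𝐍(Q)).comp (inclusion le_normalizer)).codRestrict (pCore 2 _) fun x => e.le ⟨_, x.2, rfl⟩
  let ε : Q ≃* pCore 2 _ := .ofBijective ψ ⟨fun x y q => Subtype.ext (by
      have := congrArg Subtype.val (inj h.1 (x := inclusion le_normalizer x) (y := inclusion le_normalizer y) x.2 y.2
        (congrArg Subtype.val q)); exact this), fun y => by
    obtain ⟨q, hq, f⟩ := e.ge y.2
    exact ⟨⟨q, hq⟩, Subtype.ext f⟩⟩
  have cd := Nat.card_congr ε.toEquiv
  have el : IsElementaryAbelian 2 (pCore 2 (𝐍(Q) ⧸ oddCore 𝐍(Q))) → ∀ x ∈ Q, x * x = 1 := fun k x hx =>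
    congrArg Subtype.val (ε.injective (a₁ := ⟨x, hx⟩ * ⟨x, hx⟩) (a₂ := 1) (by
      rw [map_mul, map_one, ← pow_two]; exact Subtype.ext (k.2 _ (ε _).2)))
  have a5 : ¬ 16 ∣ Nat.card ((𝐍(Q) ⧸ oddCore 𝐍(Q)) ⧸ pCore 2 _) → (∃ g : A5 →* (𝐍(Q) ⧸ oddCore 𝐍(Q)) ⧸ pCore 2 _, Injective g) →
      ∃ Q g h p, St0 (G := G) Q g h p := fun n ⟨g, i⟩ => by
    rcases Agent.S3106.result ns cn hO (sec sr) ⟨_, ⟨(MonoidHom.ofInjective i).symm⟩⟩ with ⟨k, c⟩ | ⟨c, A, B, ⟨α⟩, -, -, -, z⟩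
    · exact fin h e (fun x hx y hy => comm_of_sq (el k) hy hx) n (tp5.map g i) (.inl ⟨rfl, el k, cd.trans c⟩)
    obtain ⟨S, hS⟩ := h.1.exists_le_sylow
    obtain ⟨x, ⟨x1, x2⟩, o⟩ := exists_orderOf_eq_of_isPGroup (S.isPGroup'.to_inf_left (K := 𝐂(S)))
      (center_ne_bot S.isPGroup' fun k => absurd ((card_eq_one.2 (eq_bot_iff.2 (hS.trans k.le))).symm.trans (cd.trans c))
        (by decide))
    haveI := hc x ⟨o, S, x1, x2⟩
    have u : ∀ y, orderOf y = 2 → y ∈ 𝐂(Q) → ∃ m : y ∈ Q, ∃ a : A, a = ε ⟨y, m⟩ ∧ α a * α a = 1 ∧ α a ≠ 1 := fun y o c => by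
      have y2 : y ^ 2 = 1 := o ▸ pow_orderOf_eq_one y
      have m := h.2.1 y ⟨1, y2⟩ c
      refine ⟨m, ⟨_, (z.ge (mem_center_iff.2 fun g => ?_)).1⟩, rfl, ?_, fun k => ?_⟩
      · obtain ⟨g, rfl⟩ := ε.surjective g
        rw [← map_mul, ← map_mul]
        exact congrArg ε (Subtype.ext (c _ g.2))
      · rw [← map_mul, α.map_eq_one_iff]
        exact Subtype.ext ((map_mul ε _ _).symm.trans (ε.map_eq_one_iff.2 (Subtype.ext ((pow_two y).symm.trans y2))))
      · have : y = 1 := congrArg Subtype.val (ε.map_eq_one_iff.1 (congrArg Subtype.val (α.map_eq_one_iff.1 k)))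
        simp [this] at o
    refine absurd (Group.isSolvable_of_isSolvable_injective (f := inclusion (K := centralizer {x}) fun g hg => ?_)
      (inclusion_injective _)) h.2.2
    obtain ⟨m, a, e1, s1, n1⟩ := u x o (centralizer_anti hS x2)
    obtain ⟨m', a', e2, s2, n2⟩ := u _ ((orderOf_conj g x).trans o)
      (conj_mem_of_mem_normalizer (normalizer_le_normalizer_centralizer Q hg) (centralizer_anti hS x2))
    rw [α.injective (q8 _ _ s1 n1 s2 n2), e2] at e1
    exact mem_centralizer_singleton_iff.2 (mul_inv_eq_iff_eq_mul.1 (congrArg Subtype.val (ε.injective e1)))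
  have tr : ∀ {A B : Type _} {_ : Group A} {_ : Group B} {n : ℕ}, 5 ≤ n → (A ≃* B) →
    ∀ f : alternatingGroup (Fin n) →* B, Injective f → ∃ g : A5 →* A, Injective g := fun h e f i =>
      let ⟨g, k⟩ := alt h
      ⟨e.symm.toMonoidHom.comp (f.comp g), e.symm.injective.comp (i.comp k)⟩
  obtain ⟨w, w'⟩ := Agent.S3104.result ns cn hO (sec (sr.of_inj _ (subtype_injective _)))
  replace w' := w' (sec sr)
  rcases w with ⟨F, _, _, hF, ⟨i⟩⟩ | ⟨n, a, b, ⟨i⟩⟩ | ⟨n, a, b, ⟨i⟩⟩ | ⟨c, ⟨⟨i⟩⟩ | ⟨⟨i⟩⟩⟩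
  · have hL := CF.Classical.card_PSL_fin (F := F) 3 (by norm_num)
    rw [hF, Fin.prod_univ_three, ← Nat.card_congr i.toEquiv] at hL
    have := fun a => fin h e a (p := 7) (by simp at hL; rw [hL]; decide) ((tp7 hF).map i.symm.toMonoidHom i.symm.injective)
    rcases Agent.S3105.result ns cn hO (sec sr) hF ⟨i⟩ with ⟨k, c⟩ | ⟨⟨j⟩⟩
    · exact this (fun x hx y hy => comm_of_sq (el k) hy hx) (.inr ⟨rfl, .inl ⟨el k, cd ▸ c⟩⟩)
    · exact this (fun x hx y hy => congrArg Subtype.val ((ε.trans j).injective (a₁ := ⟨y, hy⟩ * ⟨x, hx⟩)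
        (a₂ := ⟨x, hx⟩ * ⟨y, hy⟩) (by rw [map_mul, map_mul, mul_comm]))) (.inr ⟨rfl, .inr ⟨ε.trans j⟩⟩)
  · refine a5 ?_ (tr a i (.id _) injective_id)
    rw [Nat.card_congr i.toEquiv]
    interval_cases n
    iterate 3 rw [nat_card_alternatingGroup, Nat.card_fin]; decide
    exact absurd (.inr (.inr ⟨i⟩)) w'
  · refine a5 ?_ (tr a i _ (subtype_injective _))
    rw [Nat.card_congr i.toEquiv]
    interval_cases n
    · rw [Nat.card_perm, Nat.card_fin]; decide
    · exact absurd (.inl ⟨i⟩) w'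
    · exact absurd (.inr (.inl ⟨i⟩)) w'
  · refine a5 ?_ ((tr le_rfl i (.id _) injective_id).elim fun _ => three c)
    rw [card_eq_card_quotient_mul_card_subgroup (pCore 3 _), c, Nat.card_congr i.toEquiv, nat_card_alternatingGroup, Nat.card_fin]
    decide
  · refine a5 ?_ ((tr le_rfl i _ (subtype_injective _)).elim fun _ => three c)
    rw [card_eq_card_quotient_mul_card_subgroup (pCore 3 _), c, Nat.card_congr i.toEquiv, Nat.card_perm, Nat.card_fin]
    decide

end CF.GM.S0
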